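import Cfsg.Agent.Lib.BaseCoprime.Marks
import Cfsg.Agent.Lib.BGAppendix.PiCore
/-
Three conjugates of a Hall subgroup of a finite group with a normal series of factors that are
prime powers in the set or numbers prime to it.
-/
set_option autoImplicit false
set_option linter.unusedSectionVars false

universe u

namespace CfsgLib.BaseThree

open Cfsg CfsgLib.BGAppendix

/-- each factor of the series is a prime power in `π` or prime to `π` -/
def GoodStep (π : Set ℕ) (d : ℕ) : Prop :=
  (∃ p ∈ π, p.Prime ∧ ∃ k : ℕ, d = p ^ k) ∨ ∀ q : ℕ, q.Prime → q ∣ d → q ∉ π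

theorem GoodStep.of_dvd {π : Set ℕ} {d e : ℕ} (h : GoodStep π d) (he : e ∣ d) : GoodStep π e := by
  rcases h with ⟨p, hp, hpp, k, rfl⟩ | h
  · obtain ⟨l, -, rfl⟩ := (Nat.dvd_prime_pow hpp).mp he
    exact Or.inl ⟨p, hp, hpp, l, rfl⟩
  · exact Or.inr fun q hq hqe => h q hq (hqe.trans he)

variable {G : Type u} [Group G] [Finite G] {π : Set ℕ}

omit [Finite G] in
theorem relIndex_inf_dvd {X A B : Subgroup G} [A.Normal] (hAB : A ≤ B) :
    (X ⊓ A).relIndex (X ⊓ B) ∣ A.relIndex B := by
  have h1 : (X ⊓ A).relIndex (X ⊓ B) = A.relIndex (X ⊓ B) := by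
    rw [← Subgroup.inf_relIndex_right A]
    congr 1
    exact le_antisymm (le_inf inf_le_right (inf_le_inf le_rfl hAB)) fun x hx => ⟨hx.2.1, hx.1⟩
  rw [h1, ← Subgroup.relIndex_subgroupOf (show X ⊓ B ≤ B from inf_le_right)]
  exact Subgroup.relIndex_dvd_index_of_normal _ _

omit [Finite G] in
theorem relIndex_map_dvd {G' : Type u} [Group G'] (f : G →* G') {A B : Subgroup G} [A.Normal]
    (hAB : A ≤ B) : (A.map f).relIndex (B.map f) ∣ A.relIndex B := by
  rw [Subgroup.relIndex_map_map, show B ⊔ f.ker = B ⊔ (A ⊔ f.ker) by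
    rw [← sup_assoc, sup_eq_left.mpr hAB], Subgroup.relIndex_sup_right]
  exact Subgroup.relIndex_dvd_of_le_left _ le_sup_left

/-- the subgroup is solvable -/
theorem solvable_of_series {n : ℕ} (N : Fin (n + 1) → Subgroup G) (h0 : N 0 = ⊥) (h1 : N (Fin.last n) = ⊤)
    (hm : Monotone N) (hn : ∀ i, (N i).Normal)
    (hs : ∀ i : Fin n, GoodStep π ((N i.castSucc).relIndex (N i.succ)))
    (H : Subgroup G) (hH : IsPiSubgroup π H) : Group.IsSolvable H := by
  have key : ∀ i : Fin (n + 1), Group.IsSolvable (H ⊓ N i : Subgroup G) := by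
    intro i
    induction i using Fin.induction with
    | zero =>
      rw [h0, inf_bot_eq]
      exact Group.isSolvable_of_comm fun a b => Subsingleton.elim _ _
    | succ i ih =>
      have := hn i.castSucc
      have hle : H ⊓ N i.castSucc ≤ H ⊓ N i.succ := inf_le_inf le_rfl (hm i.castSucc_le_succ)
      let D : Subgroup (H ⊓ N i.succ : Subgroup G) := (H ⊓ N i.castSucc).subgroupOf (H ⊓ N i.succ)
      have hD : D.Normal := Subgroup.normal_subgroupOf_of_le_normalizer (by
        intro x hx
        rw [Subgroup.mem_normalizer_iff]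
        intro y
        refine ⟨fun hy => ⟨H.mul_mem (H.mul_mem hx.1 hy.1) (H.inv_mem hx.1), (hn _).conj_mem y hy.2 x⟩,
          fun hy => ?_⟩
        have e : x⁻¹ * (x * y * x⁻¹) * x = y := by group
        refine ⟨e ▸ H.mul_mem (H.mul_mem (H.inv_mem hx.1) hy.1) hx.1, ?_⟩
        have := (hn i.castSucc).conj_mem _ hy.2 x⁻¹
        rwa [inv_inv, e] at this)
      have hDs : Group.IsSolvable D :=
        Group.isSolvable_of_surjective
          (f := (Subgroup.subgroupOfEquivOfLe hle).symm.toMonoidHom) (MulEquiv.surjective _)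
      have hidx : D.index ∣ (N i.castSucc).relIndex (N i.succ) := relIndex_inf_dvd (hm i.castSucc_le_succ)
      have hq : Group.IsSolvable ((H ⊓ N i.succ : Subgroup G) ⧸ D) := by
        rcases (hs i).of_dvd hidx with ⟨p, -, hp, k, hk⟩ | hπ
        · have : Fact p.Prime := ⟨hp⟩
          have := (IsPGroup.of_card (G := (H ⊓ N i.succ : Subgroup G) ⧸ D) hk).isNilpotent
          infer_instance
        · have h1 : D.index = 1 := by
            by_contra hne
            obtain ⟨q, hq, hqd⟩ := Nat.exists_prime_and_dvd hne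
            exact hπ q hq hqd (hH q hq ((hqd.trans D.index_dvd_card).trans
              (Subgroup.card_dvd_of_le inf_le_left)))
          rw [Subgroup.index_eq_one] at h1
          have : Subsingleton ((H ⊓ N i.succ : Subgroup G) ⧸ D) :=
            QuotientGroup.subsingleton_iff.mpr h1
          exact Group.isSolvable_of_comm fun a b => Subsingleton.elim _ _
      exact Group.isSolvable_of_ker_le_range D.subtype (QuotientGroup.mk' D) (by simp)
  have := key (Fin.last n)
  rwa [h1, inf_top_eq] at this

/-- without a normal subgroup for the primes in the set, the complementary core is self-centralising -/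
theorem centralizer_core_le {n : ℕ} (N : Fin (n + 1) → Subgroup G) (h0 : N 0 = ⊥) (h1 : N (Fin.last n) = ⊤)
    (hm : Monotone N) (hn : ∀ i, (N i).Normal)
    (hs : ∀ i : Fin n, GoodStep π ((N i.castSucc).relIndex (N i.succ)))
    (hπ : piCore π G = ⊥) :
    Subgroup.centralizer (piCore πᶜ G : Set G) ≤ piCore πᶜ G := by
  let M := piCore πᶜ G
  let C := Subgroup.centralizer (M : Set G)
  have : M.Normal := piCore_normal _ G
  have hCn : C.Normal := inferInstance
  have key : ∀ i : Fin (n + 1), C ⊓ N i ≤ M := by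
    intro i
    induction i using Fin.induction with
    | zero => rw [h0, inf_bot_eq]; exact bot_le
    | succ i ih =>
      have := hn i.castSucc
      have := hn i.succ
      let D : Subgroup G := C ⊓ N i.succ
      let E : Subgroup G := C ⊓ N i.castSucc
      have hED : E ≤ D := inf_le_inf le_rfl (hm i.castSucc_le_succ)
      have hDn : D.Normal := inferInstance
      have hidx : E.relIndex D ∣ (N i.castSucc).relIndex (N i.succ) := relIndex_inf_dvd (hm i.castSucc_le_succ)
      have hEπ : IsPiSubgroup πᶜ E := piSubgroup_mono piSubgroup_piCore ih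
      have hcardD : Nat.card E * E.relIndex D = Nat.card D := by
        rw [← Subgroup.relIndex_bot_left, ← Subgroup.relIndex_bot_left]
        exact Subgroup.relIndex_mul_relIndex ⊥ E D bot_le hED
      rcases (hs i).of_dvd hidx with ⟨p, hp, hpp, k, hk⟩ | h'
      · have : Fact p.Prime := ⟨hpp⟩
        obtain ⟨P⟩ := (inferInstance : Nonempty (Sylow p D))
        let E' : Subgroup D := E.subgroupOf D
        have hEc : ∀ e ∈ E', ∀ x : D, x * e = e * x := fun e he x =>
          Subtype.ext (Subgroup.mem_centralizer_iff.mp x.2.1 (e : G) (ih he)).symm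
        have hE'N : E' ≤ Subgroup.normalizer ((P : Subgroup D) : Set D) := fun e he => by
          rw [Subgroup.mem_normalizer_iff]
          intro x
          rw [← hEc e he x, mul_inv_cancel_right]
        have hN : Subgroup.normalizer ((P : Subgroup D) : Set D) = ⊤ := by
          rw [← Subgroup.index_eq_one]
          have d1 := Subgroup.index_dvd_of_le hE'N
          have d2 := Subgroup.index_dvd_of_le
            (Subgroup.le_normalizer : (P : Subgroup D) ≤ Subgroup.normalizer ((P : Subgroup D) : Set D))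
          have hcop : Nat.Coprime (p ^ k) (P : Subgroup D).index :=
            (hpp.coprime_iff_not_dvd.mpr P.not_dvd_index).pow_left k
          exact Nat.eq_one_of_dvd_coprimes hcop (hk ▸ d1) d2
        have hPn : (P : Subgroup D).Normal := Subgroup.normalizer_eq_top_iff.mp hN
        have hPc : (P : Subgroup D).Characteristic := P.characteristic_of_normal hPn
        have hPG : ((P : Subgroup D).map D.subtype).Normal := inferInstance
        have hPπ : IsPiSubgroup π ((P : Subgroup D).map D.subtype) := by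
          intro q hq hd
          rw [Subgroup.card_map_of_injective D.subtype_injective] at hd
          obtain ⟨l, hl⟩ := P.isPGroup'.exists_card_eq
          rw [hl] at hd
          exact (Nat.prime_dvd_prime_iff_eq hq hpp).mp (hq.dvd_of_dvd_pow hd) ▸ hp
        have hP1 := le_piCore hPG hPπ
        rw [hπ, le_bot_iff, Subgroup.map_eq_bot_iff_of_injective _ D.subtype_injective] at hP1
        have hk0 : k = 0 := by
          by_contra hk0
          have hd : p ∣ Nat.card D := by
            rw [← hcardD, hk]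
            exact Dvd.dvd.mul_left (dvd_pow_self p hk0) _
          have := P.not_dvd_index
          rw [hP1, Subgroup.index_bot] at this
          exact this hd
        rw [hk0, pow_zero, Subgroup.relIndex_eq_one] at hk
        exact hk.trans ih
      · refine le_piCore hDn fun q hq hd => ?_
        rw [← hcardD] at hd
        rcases hq.dvd_mul.mp hd with h | h
        · exact hEπ q hq h
        · exact h' q hq h
  intro x hx
  exact key (Fin.last n) ⟨hx, by rw [h1]; trivial⟩

/-- the reduced case -/
theorem three_conjugates_of_core_eq_bot {n : ℕ} (N : Fin (n + 1) → Subgroup G) (h0 : N 0 = ⊥)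
    (h1 : N (Fin.last n) = ⊤) (hm : Monotone N) (hn : ∀ i, (N i).Normal)
    (hs : ∀ i : Fin n, GoodStep π ((N i.castSucc).relIndex (N i.succ)))
    (hπ : piCore π G = ⊥) (H : Subgroup G) (hH : IsPiSubgroup π H) :
    ∃ x y : G, ∀ a ∈ H, x⁻¹ * a * x ∈ H → y⁻¹ * a * y ∈ H → a = 1 := by
  let M := piCore πᶜ G
  have hMn : M.Normal := piCore_normal _ G
  have hcore : IsPiSubgroup πᶜ M := piSubgroup_piCore
  have hcop : (Nat.card H).Coprime (Nat.card M) :=
    Nat.coprime_of_dvd fun q hq h1 h2 => hcore q hq h2 (hH q hq h1)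
  have hinf : ∀ a, a ∈ H → a ∈ M → a = 1 := fun a ha hb => by
    have hd := Nat.dvd_gcd (Subgroup.orderOf_dvd_natCard H ha) (Subgroup.orderOf_dvd_natCard M hb)
    rw [hcop.gcd_eq_one, Nat.dvd_one] at hd
    exact orderOf_eq_one_iff.mp hd
  let : MulDistribMulAction H M :=
    { smul := fun a m => ⟨(a : G) * m * (a : G)⁻¹, hMn.conj_mem m m.2 a⟩
      one_smul := fun m => Subtype.ext (show (1 : G) * m * (1 : G)⁻¹ = m by simp)
      mul_smul := fun a b m => Subtype.ext
        (show (a : G) * b * m * ((a : G) * b)⁻¹ = a * (b * m * (b : G)⁻¹) * (a : G)⁻¹ by group)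
      smul_one := fun a => Subtype.ext (show (a : G) * 1 * (a : G)⁻¹ = 1 by simp)
      smul_mul := fun a m m' => Subtype.ext
        (show (a : G) * (m * m') * (a : G)⁻¹ = a * m * (a : G)⁻¹ * (a * m' * (a : G)⁻¹) by group) }
  have hfaith : ∀ a : H, (∀ m : M, a • m = m) → a = 1 := by
    intro a ha
    refine Subtype.ext (hinf a a.2 (centralizer_core_le N h0 h1 hm hn hs hπ ?_))
    rw [Subgroup.mem_centralizer_iff]
    intro m hm'
    exact (mul_inv_eq_iff_eq_mul.mp (congrArg Subtype.val (ha ⟨m, hm'⟩))).symm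
  have : FaithfulSMul H M := ⟨fun {a b} h => inv_mul_eq_one.mp (hfaith (a⁻¹ * b) fun m => by
    rw [mul_smul, ← h m, inv_smul_smul])⟩
  obtain ⟨x, y, hxy⟩ := exists_pair_group (solvable_of_series N h0 h1 hm hn hs H hH) hcop
  have key : ∀ (z : M) (a : H), (z : G)⁻¹ * a * z ∈ H → a • z = z := by
    intro z a hz
    have h1 : (a : G)⁻¹ * ((z : G)⁻¹ * a * z) = 1 := by
      refine hinf _ (H.mul_mem (H.inv_mem a.2) hz) ?_
      have : (a : G)⁻¹ * ((z : G)⁻¹ * a * z) = ((a : G)⁻¹ * (z : G)⁻¹ * ((a : G)⁻¹)⁻¹) * z := by group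
      rw [this]
      exact M.mul_mem (hMn.conj_mem _ (M.inv_mem z.2) _) z.2
    refine Subtype.ext ?_
    show (a : G) * z * (a : G)⁻¹ = z
    rw [inv_mul_eq_one] at h1
    conv_lhs => arg 2; rw [h1]
    group
  exact ⟨x, y, fun a ha h1 h2 => congrArg Subtype.val (hxy ⟨a, ha⟩ (key x _ h1) (key y _ h2))⟩

/-- three conjugates of a Hall subgroup meet in the core -/
theorem three_conjugates {n : ℕ} (N : Fin (n + 1) → Subgroup G) (h0 : N 0 = ⊥)
    (h1 : N (Fin.last n) = ⊤) (hm : Monotone N) (hn : ∀ i, (N i).Normal)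
    (hs : ∀ i : Fin n, GoodStep π ((N i.castSucc).relIndex (N i.succ)))
    (H : Subgroup G) (hH : IsPiHall π H) :
    ∃ x y : G, piCore π G ≤ H ∧ ∀ a ∈ H, x⁻¹ * a * x ∈ H → y⁻¹ * a * y ∈ H → a ∈ piCore π G := by
  let Q := piCore π G
  have hQn : Q.Normal := piCore_normal _ G
  have hQπ : IsPiSubgroup π Q := piSubgroup_piCore
  have hQH : Q ≤ H := by
    have hsup : IsPiSubgroup π (H ⊔ Q) :=
      piSubgroup_sup_of_le_normalizer hH.1 hQπ (by rw [Subgroup.normalizer_eq_top_iff.mpr hQn]; exact le_top)
    have : H.relIndex (H ⊔ Q) = 1 := by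
      by_contra hne
      obtain ⟨q, hq, hqd⟩ := Nat.exists_prime_and_dvd hne
      exact hH.2 q hq (hsup q hq (hqd.trans (Subgroup.relIndex_dvd_card _ _)))
        (hqd.trans (Subgroup.relIndex_dvd_index_of_le le_sup_left))
    exact le_sup_right.trans (Subgroup.relIndex_eq_one.mp this)
  let f := QuotientGroup.mk' Q
  have hf : Function.Surjective f := QuotientGroup.mk'_surjective Q
  have hcore : piCore π (G ⧸ Q) = ⊥ := by
    let T := (piCore π (G ⧸ Q)).comap f
    have hTn : T.Normal := (piCore_normal π (G ⧸ Q)).comap f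
    have hT : IsPiSubgroup π T := by
      intro q hq hd
      rw [← QuotientGroup.ker_mk' Q] at hQπ
      have hle : f.ker ≤ T := f.ker_le_comap _
      have hc : Nat.card f.ker * f.ker.relIndex T = Nat.card T := by
        rw [← Subgroup.relIndex_bot_left, ← Subgroup.relIndex_bot_left]
        exact Subgroup.relIndex_mul_relIndex ⊥ f.ker T bot_le hle
      have hr : f.ker.relIndex T = Nat.card (piCore π (G ⧸ Q)) := by
        rw [← MonoidHom.comap_bot, Subgroup.relIndex_comap, Subgroup.map_comap_eq_self_of_surjective hf,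
          Subgroup.relIndex_bot_left]
      rw [← hc, hr] at hd
      rcases hq.dvd_mul.mp hd with h | h
      · exact hQπ q hq h
      · exact piSubgroup_piCore q hq h
    have hTQ : T ≤ Q := le_piCore hTn hT
    rw [eq_bot_iff, ← Subgroup.map_comap_eq_self_of_surjective hf (piCore π (G ⧸ Q)),
      Subgroup.map_le_iff_le_comap, MonoidHom.comap_bot, QuotientGroup.ker_mk']
    exact hTQ
  obtain ⟨x', y', hxy⟩ := three_conjugates_of_core_eq_bot (π := π) (fun i => (N i).map f)
    (by rw [h0, Subgroup.map_bot]) (by rw [h1, Subgroup.map_top_of_surjective _ hf])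
    (fun i j hij => Subgroup.map_mono (hm hij)) (fun i => (hn i).map f hf)
    (fun i => (hs i).of_dvd (by
      have := hn i.castSucc
      exact relIndex_map_dvd f (hm i.castSucc_le_succ)))
    hcore (H.map f) (piSubgroup_map hH.1 f)
  obtain ⟨x, rfl⟩ := hf x'
  obtain ⟨y, rfl⟩ := hf y'
  refine ⟨x, y, hQH, fun a ha hx hy => ?_⟩
  rw [← QuotientGroup.eq_one_iff (N := Q)]
  refine hxy (f a) ⟨a, ha, rfl⟩ ⟨_, hx, by simp⟩ ⟨_, hy, by simp⟩

end CfsgLib.BaseThree
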